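import Cfsg.Agent.H711.FiThreeRow
import Cfsg.Agent.H711.BabyRow
import Cfsg.Agent.H457.Odd.Crit

/-!
# Involutions normalising a Sylow 3-subgroup: `Fi23`, the Baby Monster
-/

set_option autoImplicit false

open Subgroup

namespace Cfsg.Agent.H711.EvFi

open Cfsg Cfsg.Agent.H711.Crit Cfsg.Agent.Fischer480.Defs Cfsg.Agent.R08 Cfsg.Agent.R08.FiTwentyFour
open Cfsg.Agent.Fischer.Fi24Class (gen gen_sq)
open Cfsg.Agent.H830.Con24 Cfsg.Agent.H830.Type24
open Cfsg.Agent.H711.FiThreeRow Cfsg.Agent.H457.Odd Cfsg.Agent.H467.OddNorm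

theorem evIn_pair {d c : Spor.Fi24} (hd : d ∈ L) (hc : c ∈ L) (hdc : ¬ Commute d c) :
    EvIn 3 ↥(centralizer ({c} : Set Spor.Fi24) ⊓ centralizer ({d} : Set Spor.Fi24)) := by
  have := finite_Fi24
  have : Fact (Nat.Prime 3) := ⟨Nat.prime_three⟩
  obtain ⟨N, hN, -, ⟨f⟩⟩ := tri_com fgroup isT8 hd hc hdc
  rw [← closure_com hd hc hdc]
  refine evIn_of_surjective (by norm_num) (K := Equiv.Perm (Fin 3))
    ((f.toMonoidHom.comp (QuotientGroup.mk' N)).comp (QuotientGroup.mk' (center ↥(closure (Com L d c))))) ?_ evIn_s3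
  exact (f.surjective.comp (QuotientGroup.mk'_surjective _)).comp (QuotientGroup.mk'_surjective _)

theorem evIn_fi23 : EvIn 3 Spor.Fi23 := by
  have := finite_Fi24
  have : Fact (Nat.Prime 3) := ⟨Nat.prime_three⟩
  obtain ⟨f, hf, hk⟩ := exists_equiv
  obtain ⟨c, hc, hdc⟩ := exists_pair
  have h1 := evIn_pair (gen_mem_L .l) hc hdc
  have h2 := card_two fgroup isT8 (gen_mem_L .l) hc hdc
  have hF : Nat.card Spor.Fi23 = 4089470473293004800 := NotCT.Orders.fi23 ⟨MulEquiv.refl _⟩
  have hfin : Finite Spor.Fi23 := Nat.finite_of_card_ne_zero (by rw [hF]; norm_num)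
  have hle : centralizer ({c} : Set Spor.Fi24) ⊓ centralizer ({gen .l} : Set Spor.Fi24) ≤
    centralizer ({gen .l} : Set Spor.Fi24) := inf_le_right
  -- the kernel of `f` is generated by `l`
  have hl1 : (gen .l : Spor.Fi24) ≠ 1 := ne_one_L (gen_mem_L .l)
  have hll : gen .l * gen .l = (1 : Spor.Fi24) := gen_sq _
  let l : ↥(centralizer ({gen .l} : Set Spor.Fi24)) := ⟨gen .l, mem_centralizer_singleton_iff.2 rfl⟩
  have hlc : ∀ x : ↥(centralizer ({gen .l} : Set Spor.Fi24)), x * l = l * x := fun x =>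
    Subtype.ext (mem_centralizer_singleton_iff.1 x.2)
  have hlk : l ∈ f.ker := by
    rw [MonoidHom.mem_ker]
    have hs : IsSimpleGroup Spor.Fi23 := Cfsg.Agent.S1697.result.1
    have hZ : center Spor.Fi23 = ⊥ := RowCount.center_eq_bot (by
      rw [hF]
      intro h3
      have h4 := (Nat.prime_dvd_prime_iff_eq Nat.prime_two h3).1 (by norm_num)
      norm_num at h4)
    have h3 : f l ∈ center Spor.Fi23 := by
      rw [mem_center_iff]
      intro g
      obtain ⟨x, rfl⟩ := hf g
      rw [← map_mul, ← map_mul, hlc]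
    rwa [hZ, mem_bot] at h3
  have hker : ∀ x ∈ f.ker, x = 1 ∨ x = l := by
    intro x hx
    have hl2 : l ≠ 1 := fun h0 => hl1 (congrArg Subtype.val h0)
    by_contra h0
    push Not at h0
    obtain ⟨a, b, hab, huniv⟩ := (Nat.card_eq_two_iff (α := f.ker)).1 hk
    have key : ∀ y : f.ker, y = a ∨ y = b := fun y => by
      have : y ∈ ({a, b} : Set f.ker) := by rw [huniv]; trivial
      simpa using this
    have k1 := key 1
    have k2 := key ⟨l, hlk⟩
    have k3 := key ⟨x, hx⟩
    have n1 : (⟨l, hlk⟩ : f.ker) ≠ 1 := fun h => hl2 (congrArg Subtype.val h)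
    have n2 : (⟨x, hx⟩ : f.ker) ≠ 1 := fun h => h0.1 (congrArg Subtype.val h)
    have n3 : (⟨x, hx⟩ : f.ker) ≠ ⟨l, hlk⟩ := fun h => h0.2 (congrArg Subtype.val h)
    rcases k1 with k1 | k1 <;> rcases k2 with k2 | k2 <;> rcases k3 with k3 | k3
    all_goals first
      | exact n1 (k2.trans k1.symm)
      | exact n2 (k3.trans k1.symm)
      | exact n3 (k3.trans k2.symm)
  refine evIn_of_injective_card (n := 13) (f.comp (inclusion hle)) ?_ ?_ ?_ h1
  · rw [injective_iff_map_eq_one]
    intro x hx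
    rcases hker (inclusion hle x) hx with h3 | h3
    · exact Subtype.ext (show (x : Spor.Fi24) = 1 from congrArg Subtype.val h3)
    · exfalso
      apply hdc
      have h4 : (x : Spor.Fi24) = gen .l := congrArg Subtype.val h3
      have h5 := mem_centralizer_singleton_iff.1 x.2.1
      rw [h4] at h5
      exact h5
  · rw [hF]; norm_num
  · rw [h2]; norm_num

theorem evIn_b : EvIn 3 Spor.BabyMonster := by
  have : Fact (Nat.Prime 3) := ⟨Nat.prime_three⟩
  have hB : Nat.card Spor.BabyMonster = 4154781481226426191177580544000000 := BM.KHAll.card_B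
  have : Finite Spor.BabyMonster := Nat.finite_of_card_ne_zero (by rw [hB]; norm_num)
  have hF : Nat.card Spor.Fi23 = 4089470473293004800 := BM.Psi.card_Fi23
  let f := BM.Psi.psi2 BM.Psi.rel_of
  have hs : IsSimpleGroup Spor.Fi23 := Cfsg.Agent.S1697.result.1
  have hinj : Function.Injective f := by
    rw [← MonoidHom.ker_eq_bot_iff]
    rcases (inferInstance : f.ker.Normal).eq_bot_or_eq_top with h | h
    · exact h
    · exfalso
      have h1 : f (Fischer.Fi23Hom.gen .a) = 1 := by
        rw [← MonoidHom.mem_ker, h]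
        exact mem_top _
      rw [show f (Fischer.Fi23Hom.gen .a) = _ from BM.Psi.psi2_gen BM.Psi.rel_of .a] at h1
      have h2 := BM.KHAll.card_cent (BM.Psi.m2 .a)
      have h3 : centralizer ({BM.StageBFinalOf.gB (BM.Psi.m2 .a)} : Set Spor.BabyMonster) = ⊤ := by
        rw [eq_top_iff]
        intro g _
        rw [mem_centralizer_singleton_iff]
        have : BM.StageBFinalOf.gB (BM.Psi.m2 .a) = 1 := h1
        rw [this, mul_one, one_mul]
      rw [h3, card_top, hB] at h2
      norm_num at h2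
  exact evIn_of_injective_card (n := 13) f hinj (by rw [hB]; norm_num) (by rw [hF]; norm_num) evIn_fi23

end Cfsg.Agent.H711.EvFi
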